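import Mathlib

/-! Subgroups conjugate into a commutative subgroup which is the centraliser of each of its elements of
the relevant kind. -/

set_option autoImplicit false

namespace CfsgLib.ReeTori

variable {G : Type*} [Group G]

/-- If the conjugate of `H` by `c` lies in the commutative `T`, and `T` contains the centraliser of
each nontrivial element of that conjugate, then every nontrivial subgroup of `H` has centraliser
`T` conjugated back. -/
theorem centralizer_eq_map {T H A : Subgroup G} (hT : ∀ x ∈ T, ∀ y ∈ T, x * y = y * x) (c : G)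
    (hH : ∀ h ∈ H, c * h * c⁻¹ ∈ T)
    (hC : ∀ h ∈ H, h ≠ 1 → Subgroup.centralizer {c * h * c⁻¹} ≤ T) (hA : A ≤ H) (hA1 : A ≠ ⊥) :
    Subgroup.centralizer (A : Set G) = T.map (MulAut.conj c⁻¹).toMonoidHom := by
  obtain ⟨a, ha, ha1⟩ := (Subgroup.ne_bot_iff_exists_ne_one.1 hA1).elim
    fun a h => (⟨a.1, a.2, fun e => h (Subtype.ext e)⟩ : ∃ a, a ∈ A ∧ a ≠ 1)
  ext x
  constructor
  · intro hx
    refine ⟨c * x * c⁻¹, hC a (hA ha) ha1 (Subgroup.mem_centralizer_singleton_iff.2 ?_),
      by simp [mul_assoc]⟩
    exact ((show Commute x a from (Subgroup.mem_centralizer_iff.1 hx a ha).symm).map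
      (MulAut.conj c).toMonoidHom).eq
  · rintro ⟨t, ht, rfl⟩
    refine Subgroup.mem_centralizer_iff.2 fun b hb => ?_
    have h := ((show Commute (c * b * c⁻¹) t from hT _ (hH b (hA hb)) t ht).map
      (MulAut.conj c⁻¹).toMonoidHom).eq
    simpa [mul_assoc] using h

/-- A cyclic group is conjugate into `T` once some power of a generator is, and `T` is the
centraliser of that power. -/
theorem exists_conj_le {T H : Subgroup G} [IsCyclic H] {c y : G} (hy : y ∈ H)
    (hC : Subgroup.centralizer {c * y * c⁻¹} ≤ T) : ∀ h ∈ H, c * h * c⁻¹ ∈ T := by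
  intro h hh
  refine hC (Subgroup.mem_centralizer_singleton_iff.2 ?_)
  exact ((show Commute h y from congrArg Subtype.val
    ((‹IsCyclic H›).isMulCommutative.is_comm.comm ⟨h, hh⟩ ⟨y, hy⟩)).map (MulAut.conj c).toMonoidHom).eq

theorem orderOf_conj' (c x : G) : orderOf (c * x * c⁻¹) = orderOf x :=
  orderOf_injective (MulAut.conj c).toMonoidHom (MulAut.conj c).injective x

end CfsgLib.ReeTori
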