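import Cfsg.Agent.Lib.Twisted.ReeHall
import Cfsg.Agent.Lib.ReeTori.Conj

/-! Elements and cyclic subgroups whose orders divide `q - 1` or `(q + 1) / 2`. -/

set_option autoImplicit false
set_option linter.unusedSectionVars false

namespace CfsgLib.ReeTori

open Cfsg.Lie CfsgLib.Twisted

variable {K : Type*} [Field K] [Fintype K] {m : ℕ} (hK : Fintype.card K = 3 ^ (2 * m + 1))
include hK

theorem commute_reeH {x y : ↥(twistedG2 K (3 ^ m))} (hx : x ∈ reeH K m) (hy : y ∈ reeH K m) :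
    x * y = y * x :=
  congrArg Subtype.val ((isCyclic_reeH hK).isMulCommutative.is_comm.comm ⟨x, hx⟩ ⟨y, hy⟩)

omit hK in
theorem five_le_of_dvd (hm : 1 ≤ m) {ℓ : ℕ} (hℓ : ℓ.Prime) (h2 : ℓ ≠ 2)
    (hd : ℓ ∣ 3 ^ (2 * m + 1) - 1 ∨ ℓ ∣ 3 ^ (2 * m + 1) + 1) : 5 ≤ ℓ := by
  obtain ⟨h27, -, h3⟩ := ree_q_data (m := m) hm
  have := hℓ.two_le
  by_contra h
  interval_cases ℓ
  · exact h2 rfl
  · omega
  · norm_num at hℓ

/-- An element with odd prime `ℓ ∣ q - 1` dividing its order is conjugate into the split torus. -/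
theorem exists_conj_split (hm : 1 ≤ m) {x : ↥(twistedG2 K (3 ^ m))} {ℓ : ℕ} (hℓ : ℓ.Prime)
    (h2 : ℓ ≠ 2) (hd : ℓ ∣ orderOf x) (hq : ℓ ∣ 3 ^ (2 * m + 1) - 1) :
    ∃ c, c * x * c⁻¹ ∈ reeH K m := by
  have h5 := five_le_of_dvd hm hℓ h2 (Or.inl hq)
  set y := x ^ (orderOf x / ℓ)
  have hy : orderOf y = ℓ := orderOf_pow_orderOf_div (orderOf_pos x).ne' hd
  obtain ⟨c, hc⟩ := exists_conj_reeH hK hm hℓ h5 hq hy
  refine ⟨c, (centralizer_eq_reeH hK hm hc ?_).le (Subgroup.mem_centralizer_singleton_iff.2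
    (((Commute.refl x).pow_right _).map (MulAut.conj c).toMonoidHom).eq)⟩
  intro e
  have h := orderOf_dvd_of_pow_eq_one (show (c * y * c⁻¹) ^ 2 = 1 by rw [pow_two, e])
  rw [orderOf_conj', hy] at h
  exact absurd (Nat.le_of_dvd two_pos h) (by omega)

/-- An element with odd prime `ℓ ∣ q + 1` dividing its order is conjugate into `M`. -/
theorem exists_conj_quarter (hm : 1 ≤ m) {M : Subgroup ↥(twistedG2 K (3 ^ m))}
    {A e o : ↥(twistedG2 K (3 ^ m))} (hN : IsNonsplit M A e o)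
    {x : ↥(twistedG2 K (3 ^ m))} {ℓ : ℕ} (hℓ : ℓ.Prime)
    (h2 : ℓ ≠ 2) (hd : ℓ ∣ orderOf x) (hq : ℓ ∣ 3 ^ (2 * m + 1) + 1) :
    ∃ c, c * x * c⁻¹ ∈ M := by
  have h5 := five_le_of_dvd hm hℓ h2 (Or.inr hq)
  set y := x ^ (orderOf x / ℓ)
  have hy : orderOf y = ℓ := orderOf_pow_orderOf_div (orderOf_pos x).ne' hd
  obtain ⟨c, hc⟩ := exists_conj_nonsplit hK hm hN hℓ h5 hq hy
  exact ⟨c, (centralizer_eq_nonsplit hK hN hm hc hℓ h2 ((orderOf_conj' c y).trans hy)).le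
    (Subgroup.mem_centralizer_singleton_iff.2
      (((Commute.refl x).pow_right _).map (MulAut.conj c).toMonoidHom).eq)⟩

omit [Fintype K] hK in
theorem sq_ne_one_of_two_lt {x : ↥(twistedG2 K (3 ^ m))} (h : 2 < orderOf x) : x * x ≠ 1 := by
  intro e
  have := orderOf_dvd_of_pow_eq_one (show x ^ 2 = 1 by rw [pow_two, e])
  exact absurd (Nat.le_of_dvd two_pos this) (by omega)

/-- A cyclic subgroup of order dividing `(q - 1) / 2` lies in a conjugate of the split torus. -/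
theorem split_conj_le (hm : 1 ≤ m) (H : Subgroup ↥(twistedG2 K (3 ^ m))) [IsCyclic H]
    (hd : Nat.card H ∣ (3 ^ (2 * m + 1) - 1) / 2) (h1 : Nat.card H ≠ 1) :
    ∃ c, ∀ h ∈ H, c * h * c⁻¹ ∈ reeH K m ∧
      (h ≠ 1 → Subgroup.centralizer {c * h * c⁻¹} = reeH K m) := by
  obtain ⟨h27, hq8, -⟩ := ree_q_data (m := m) hm
  have hodd : Odd ((3 ^ (2 * m + 1) - 1) / 2) := Nat.odd_iff.2 (by omega)
  have hdq : (3 ^ (2 * m + 1) - 1) / 2 ∣ 3 ^ (2 * m + 1) - 1 := Nat.div_dvd_of_dvd (by omega)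
  obtain ⟨⟨g, hg⟩, hgen⟩ := IsCyclic.exists_ofOrder_eq_natCard (α := H)
  rw [← Subgroup.orderOf_coe] at hgen
  change orderOf g = _ at hgen
  obtain ⟨ℓ, hℓ, hℓd⟩ := Nat.exists_prime_and_dvd h1
  have hℓ2 : ℓ ≠ 2 := fun e => by
    subst e
    exact absurd (hℓd.trans hd) (fun h => by
      have := Nat.odd_iff.1 hodd; omega)
  obtain ⟨c, hc⟩ := exists_conj_split hK hm hℓ hℓ2 (hgen ▸ hℓd) ((hℓd.trans hd).trans hdq)
  have hcen : Subgroup.centralizer {c * g * c⁻¹} = reeH K m := centralizer_eq_reeH hK hm hc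
    (sq_ne_one_of_two_lt (by
      rw [orderOf_conj', hgen]
      have := Nat.le_of_dvd Nat.card_pos hℓd
      have := hℓ.two_le; omega))
  refine ⟨c, fun h hh => ?_⟩
  have hmem := exists_conj_le hg hcen.le h hh
  refine ⟨hmem, fun hne => centralizer_eq_reeH hK hm hmem fun e => hne ?_⟩
  have h2 := orderOf_dvd_of_pow_eq_one (show (c * h * c⁻¹) ^ 2 = 1 by rw [pow_two, e])
  rw [orderOf_conj'] at h2
  have hho : Odd (orderOf h) := hodd.of_dvd_nat ((Subgroup.orderOf_dvd_natCard _ hh).trans hd)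
  rcases (Nat.dvd_prime Nat.prime_two).1 h2 with h' | h'
  · exact orderOf_eq_one_iff.1 h'
  · rw [h'] at hho; exact absurd hho (by decide)

/-- A cyclic subgroup of order dividing `(q + 1) / 4` lies in a conjugate of the odd part of `M`. -/
theorem quarter_conj_le (hm : 1 ≤ m) {M : Subgroup ↥(twistedG2 K (3 ^ m))}
    {A e o : ↥(twistedG2 K (3 ^ m))} (hN : IsNonsplit M A e o)
    (H : Subgroup ↥(twistedG2 K (3 ^ m))) [IsCyclic H]
    (hd : Nat.card H ∣ (3 ^ (2 * m + 1) + 1) / 4) (h1 : Nat.card H ≠ 1) :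
    ∃ c, ∀ h ∈ H, c * h * c⁻¹ ∈ Subgroup.zpowers o ∧ c * h * c⁻¹ ∈ M ∧
      (h ≠ 1 → Subgroup.centralizer {c * h * c⁻¹} = M) := by
  obtain ⟨h27, hq8, -⟩ := ree_q_data (m := m) hm
  have hodd : Odd ((3 ^ (2 * m + 1) + 1) / 4) := Nat.odd_iff.2 (by omega)
  have hdq : (3 ^ (2 * m + 1) + 1) / 4 ∣ 3 ^ (2 * m + 1) + 1 := Nat.div_dvd_of_dvd (by omega)
  obtain ⟨⟨g, hg⟩, hgen⟩ := IsCyclic.exists_ofOrder_eq_natCard (α := H)
  rw [← Subgroup.orderOf_coe] at hgen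
  change orderOf g = _ at hgen
  obtain ⟨ℓ, hℓ, hℓd⟩ := Nat.exists_prime_and_dvd h1
  have hℓ2 : ℓ ≠ 2 := fun e => by
    subst e
    exact absurd (hℓd.trans hd) (fun h => by
      have := Nat.odd_iff.1 hodd; omega)
  obtain ⟨c, hc⟩ := exists_conj_quarter hK hm hN hℓ hℓ2 (hgen ▸ hℓd) ((hℓd.trans hd).trans hdq)
  have hcen : Subgroup.centralizer {c * g * c⁻¹} = M :=
    centralizer_eq_nonsplit_of_sq_ne hK hN hm hc (sq_ne_one_of_two_lt (by
      rw [orderOf_conj', hgen]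
      have := Nat.le_of_dvd Nat.card_pos hℓd
      have := hℓ.two_le; omega))
  refine ⟨c, fun h hh => ?_⟩
  have hmem := exists_conj_le hg hcen.le h hh
  have hho : Odd (orderOf (c * h * c⁻¹)) := by
    rw [orderOf_conj']
    exact hodd.of_dvd_nat ((Subgroup.orderOf_dvd_natCard _ hh).trans hd)
  refine ⟨hN.odd_mem _ hmem hho, hmem, fun hne => centralizer_eq_nonsplit_of_sq_ne hK hN hm hmem
    fun e => hne ?_⟩
  have h2 := orderOf_dvd_of_pow_eq_one (show (c * h * c⁻¹) ^ 2 = 1 by rw [pow_two, e])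
  rcases (Nat.dvd_prime Nat.prime_two).1 h2 with h' | h'
  · rw [orderOf_conj'] at h'; exact orderOf_eq_one_iff.1 h'
  · rw [h'] at hho; exact absurd hho (by decide)

/-- Centralisers of the subgroups of a cyclic subgroup of order `(q - 1) / 2`. -/
theorem centralizer_split (hm : 1 ≤ m) (H : Subgroup ↥(twistedG2 K (3 ^ m))) [IsCyclic H]
    (hH : Nat.card H = (3 ^ (2 * m + 1) - 1) / 2) :
    IsCyclic ↥(Subgroup.centralizer (H : Set ↥(twistedG2 K (3 ^ m)))) ∧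
      Nat.card ↥(Subgroup.centralizer (H : Set ↥(twistedG2 K (3 ^ m)))) = 3 ^ (2 * m + 1) - 1 ∧
      ∀ A : Subgroup ↥(twistedG2 K (3 ^ m)), A ≤ H → A ≠ ⊥ →
        Subgroup.centralizer (A : Set ↥(twistedG2 K (3 ^ m))) = Subgroup.centralizer (H : Set ↥(twistedG2 K (3 ^ m))) := by
  obtain ⟨h27, -, -⟩ := ree_q_data (m := m) hm
  obtain ⟨c, hc⟩ := split_conj_le hK hm H hH.dvd (by omega)
  have key := fun A (hA : A ≤ H) (hA1 : A ≠ ⊥) => centralizer_eq_map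
    (fun x hx y hy => commute_reeH hK hx hy) c (fun h hh => (hc h hh).1)
    (fun h hh hne => ((hc h hh).2 hne).le) hA hA1
  have hH1 : H ≠ ⊥ := fun e => by
    have := Subgroup.eq_bot_iff_card H |>.1 e; omega
  rw [key H le_rfl hH1]
  refine ⟨?_, ?_, fun A hA hA1 => key A hA hA1⟩
  · have := isCyclic_reeH hK (m := m)
    exact isCyclic_of_surjective _ ((MulAut.conj c⁻¹).toMonoidHom.subgroupMap_surjective (reeH K m))
  · rw [Subgroup.card_map_of_injective (MulAut.conj c⁻¹).injective, card_reeH hK]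

/-- Centralisers of the subgroups of a cyclic subgroup of order `(q + 1) / 4`. -/
theorem centralizer_quarter (hm : 1 ≤ m) (H : Subgroup ↥(twistedG2 K (3 ^ m))) [IsCyclic H]
    (hH : Nat.card H = (3 ^ (2 * m + 1) + 1) / 4) :
    IsMulCommutative ↥(Subgroup.centralizer (H : Set ↥(twistedG2 K (3 ^ m)))) ∧
      Nat.card ↥(Subgroup.centralizer (H : Set ↥(twistedG2 K (3 ^ m)))) = 3 ^ (2 * m + 1) + 1 ∧
      (∀ x ∈ Subgroup.centralizer (H : Set ↥(twistedG2 K (3 ^ m))), orderOf x ≠ 4) ∧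
      ∀ A : Subgroup ↥(twistedG2 K (3 ^ m)), A ≤ H → A ≠ ⊥ →
        Subgroup.centralizer (A : Set ↥(twistedG2 K (3 ^ m))) = Subgroup.centralizer (H : Set ↥(twistedG2 K (3 ^ m))) := by
  obtain ⟨h27, hq8, -⟩ := ree_q_data (m := m) hm
  obtain ⟨M, A₀, e, o, hN⟩ := exists_nonsplit hK hm
  obtain ⟨c, hc⟩ := quarter_conj_le hK hm hN H hH.dvd (by omega)
  have key := fun A (hA : A ≤ H) (hA1 : A ≠ ⊥) => centralizer_eq_map
    (fun x hx y hy => nonsplit_commute hK hN hm hx hy) c (fun h hh => (hc h hh).2.1)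
    (fun h hh hne => ((hc h hh).2.2 hne).le) hA hA1
  have hH1 : H ≠ ⊥ := fun e => by
    have := Subgroup.eq_bot_iff_card H |>.1 e; omega
  rw [key H le_rfl hH1]
  refine ⟨⟨⟨?_⟩⟩, ?_, ?_, fun A hA hA1 => key A hA hA1⟩
  · rintro ⟨_, a, ha, rfl⟩ ⟨_, b, hb, rfl⟩
    refine Subtype.ext ?_
    show (MulAut.conj c⁻¹).toMonoidHom a * (MulAut.conj c⁻¹).toMonoidHom b = _ * _
    rw [← map_mul, ← map_mul, nonsplit_commute hK hN hm ha hb]
  · rw [Subgroup.card_map_of_injective (MulAut.conj c⁻¹).injective, hN.card]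
  · rintro _ ⟨a, ha, rfl⟩ h4
    rw [orderOf_injective _ (MulAut.conj c⁻¹).injective a] at h4
    have := hN.exp a ha
    rw [h4] at this
    omega

end CfsgLib.ReeTori
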