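import Cfsg.Agent.Lib.Twisted.ConjCount
import Cfsg.Agent.Lib.Twisted.GLSeven
import Cfsg.Agent.Lib.ReeTori.Conj

/-! Conjugacy and counting for elements of a given order in self-centralising cyclic subgroups. -/

set_option autoImplicit false

namespace CfsgLib.ReeTori

variable {G : Type*} [Group G] [Finite G]

/-- The number of elements of order `i` in a cyclic subgroup of order divisible by `i`. -/
theorem card_orderOf_mem (Z : Subgroup G) [IsCyclic Z] {i : ℕ} (hi : i ∣ Nat.card Z) :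
    Nat.card {s : G // s ∈ Z ∧ orderOf s = i} = Nat.totient i := by
  classical
  have := Fintype.ofFinite Z
  rw [Nat.card_congr (⟨fun x => ⟨⟨x.1, x.2.1⟩, (Subgroup.orderOf_mk _ _).trans x.2.2⟩,
      fun x => ⟨x.1.1, x.1.2, (Subgroup.orderOf_coe x.1).trans x.2⟩, fun x => rfl, fun x => rfl⟩ :
      {s : G // s ∈ Z ∧ orderOf s = i} ≃ {s : Z // orderOf s = i}),
    Nat.card_eq_fintype_card, Fintype.card_subtype]
  exact IsCyclic.card_orderOf_eq_totient (by rwa [← Nat.card_eq_fintype_card])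

/-- A cyclic group has one subgroup of each order. -/
theorem eq_of_le_cyclic {Z S S' : Subgroup G} [IsCyclic Z] (hS : S ≤ Z) (hS' : S' ≤ Z)
    (h : Nat.card S = Nat.card S') : S = S' := by
  have hsub : IsCyclic S := Subgroup.isCyclic_of_le hS
  obtain ⟨⟨x, hx⟩, hgen⟩ := IsCyclic.exists_ofOrder_eq_natCard (α := S)
  rw [← Subgroup.orderOf_coe] at hgen
  change orderOf x = _ at hgen
  refine (Subgroup.eq_of_le_of_card_ge (fun y hy => ?_) h.le).symm
  have hy' : y ^ Nat.card S = 1 := by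
    rw [h]
    exact congrArg Subtype.val (pow_card_eq_one' (G := S') (x := ⟨y, hy⟩))
  have hxo : orderOf (⟨x, hS hx⟩ : Z) = Nat.card S := (Subgroup.orderOf_mk _ _).trans hgen
  have hyo : (⟨y, hS' hy⟩ : Z) ^ Nat.card S = 1 := Subtype.ext hy'
  obtain ⟨j, hj⟩ := Subgroup.mem_zpowers_iff.1
    (CfsgLib.Twisted.GLSeven.mem_zpowers_of_cyclic Nat.card_pos hxo hyo)
  have e : x ^ j = y := congrArg Subtype.val hj
  exact e ▸ zpow_mem hx j

/-- Two subgroups of the same order conjugate into the same cyclic subgroup are conjugate. -/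
theorem exists_map_eq {Z A B : Subgroup G} [IsCyclic Z] {a b : G} (ha : ∀ x ∈ A, a * x * a⁻¹ ∈ Z)
    (hb : ∀ x ∈ B, b * x * b⁻¹ ∈ Z) (h : Nat.card A = Nat.card B) :
    ∃ g : G, B = A.map (MulAut.conj g).toMonoidHom := by
  have hA : A.map (MulAut.conj a).toMonoidHom ≤ Z := by
    rintro _ ⟨x, hx, rfl⟩; exact ha x hx
  have hB : B.map (MulAut.conj b).toMonoidHom ≤ Z := by
    rintro _ ⟨x, hx, rfl⟩; exact hb x hx
  have e := eq_of_le_cyclic hA hB (by
    rw [Subgroup.card_map_of_injective (MulAut.conj a).injective,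
      Subgroup.card_map_of_injective (MulAut.conj b).injective, h])
  refine ⟨b⁻¹ * a, ?_⟩
  ext x
  constructor
  · intro hx
    have hmem : b * x * b⁻¹ ∈ A.map (MulAut.conj a).toMonoidHom := e ▸ ⟨x, hx, rfl⟩
    obtain ⟨y, hy, hyx⟩ := hmem
    refine ⟨y, hy, ?_⟩
    show b⁻¹ * a * y * (b⁻¹ * a)⁻¹ = x
    calc _ = b⁻¹ * (a * y * a⁻¹) * b := by group
      _ = b⁻¹ * (b * x * b⁻¹) * b := by rw [show a * y * a⁻¹ = b * x * b⁻¹ from hyx]
      _ = x := by group
  · rintro ⟨y, hy, rfl⟩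
    have hmem : a * y * a⁻¹ ∈ B.map (MulAut.conj b).toMonoidHom := e ▸ ⟨y, hy, rfl⟩
    obtain ⟨x, hx, hxy⟩ := hmem
    show b⁻¹ * a * y * (b⁻¹ * a)⁻¹ ∈ B
    rw [show b⁻¹ * a * y * (b⁻¹ * a)⁻¹ = b⁻¹ * (a * y * a⁻¹) * b by group,
      ← show b * x * b⁻¹ = a * y * a⁻¹ from hxy, show b⁻¹ * (b * x * b⁻¹) * b = x by group]
    exact hx

/-- Elements of order `i`, all conjugate into a subgroup which is the centraliser of each of its
elements of that order, counted. -/
theorem card_order_mul_normalizer (B : Subgroup G) (i : ℕ)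
    (hC : ∀ z ∈ B, orderOf z = i → Subgroup.centralizer {z} = B)
    (hconj : ∀ g : G, orderOf g = i → ∃ c, c * g * c⁻¹ ∈ B) :
    Nat.card {g : G // orderOf g = i} * Nat.card (Subgroup.normalizer (B : Set G)) =
      Nat.card G * Nat.card {s : G // s ∈ B ∧ orderOf s = i} := by
  have h := CfsgLib.Twisted.card_conj_into (Subgroup.normalizer (B : Set G))
    (fun s => s ∈ B ∧ orderOf s = i)
    (fun n hn s hs => ⟨(Subgroup.mem_normalizer_iff.1 hn s).1 hs.1, (orderOf_conj' n s).trans hs.2⟩)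
    (fun c s hs hc => CfsgLib.Twisted.mem_normalizer_of_centralizer_eq (hC s hs.1 hs.2)
      (hC _ hc.1 hc.2))
  rw [Nat.card_congr (Equiv.subtypeEquivRight
    (q := fun g => ∃ c, c * g * c⁻¹ ∈ B ∧ orderOf (c * g * c⁻¹) = i) fun g =>
      ⟨fun hg => (hconj g hg).imp fun c hc => ⟨hc, (orderOf_conj' c g).trans hg⟩,
        fun ⟨c, _, hc⟩ => (orderOf_conj' c g).symm.trans hc⟩), h,
    ← (Subgroup.normalizer (B : Set G)).card_mul_index]
  ring

theorem exists_odd_prime_dvd {n : ℕ} (h2 : 2 < n) (h4 : ¬ 4 ∣ n) :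
    ∃ ℓ, ℓ.Prime ∧ ℓ ≠ 2 ∧ ℓ ∣ n := by
  obtain ⟨a, r, hr, har⟩ := Nat.exists_eq_pow_mul_and_not_dvd (n := n) (by omega) 2 (by norm_num)
  have hr1 : r ≠ 1 := by
    rintro rfl
    match a, har with
    | 0, h => norm_num at h; omega
    | 1, h => norm_num at h; omega
    | a + 2, h => exact h4 ⟨2 ^ a, by rw [h, pow_add]; ring⟩
  obtain ⟨ℓ, hℓ, hd⟩ := Nat.exists_prime_and_dvd hr1
  exact ⟨ℓ, hℓ, fun e => hr (e ▸ hd), har ▸ dvd_mul_of_dvd_right hd _⟩

end CfsgLib.ReeTori
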