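import Cfsg.Agent.Lib.Twisted.ReeTori
import Cfsg.Agent.Lib.ReeTori.Centralizers
import Cfsg.Agent.Lib.ReeTori.CyclicCount

/-! Cyclic subgroups whose orders divide `q ± r + 1`; conjugacy of cyclic subgroups of toral order. -/

set_option autoImplicit false
set_option linter.unusedSectionVars false

namespace CfsgLib.ReeTori

open Cfsg.Lie CfsgLib.Twisted

theorem tori_arith {m : ℕ} (hm : 1 ≤ m) :
    (3 ^ (2 * m + 1) - 3 ^ (m + 1) + 1) * (3 ^ (2 * m + 1) + 3 ^ (m + 1) + 1) =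
        (3 ^ (2 * m + 1)) ^ 2 - 3 ^ (2 * m + 1) + 1 ∧
      Nat.Coprime (3 ^ (2 * m + 1) - 3 ^ (m + 1) + 1) (3 ^ (2 * m + 1) + 3 ^ (m + 1) + 1) := by
  have hr : (3 ^ (m + 1)) * (3 ^ (m + 1)) = 3 * 3 ^ (2 * m + 1) := by
    rw [← pow_add, ← pow_succ']; congr 1; omega
  have hle : 3 ^ (m + 1) < 3 ^ (2 * m + 1) := Nat.pow_lt_pow_right (by norm_num) (by omega)
  have hq2 : 2 ∣ 3 ^ (2 * m + 1) + 1 := by
    have : (3 ^ (2 * m + 1)) % 2 = 1 := by rw [Nat.pow_mod]; norm_num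
    omega
  have hr2 : (3 ^ (m + 1)) % 2 = 1 := by rw [Nat.pow_mod]; norm_num
  have hr3 : 3 ∣ 3 ^ (m + 1) ∧ 3 ∣ 3 ^ (2 * m + 1) := ⟨dvd_pow_self 3 (by omega), dvd_pow_self 3 (by omega)⟩
  constructor
  · generalize 3 ^ (m + 1) = r at *
    generalize 3 ^ (2 * m + 1) = q at *
    have hq : q ≤ q ^ 2 := Nat.le_self_pow two_ne_zero q
    zify [hle.le, hq] at hr ⊢
    linear_combination -hr
  · refine Nat.coprime_of_dvd fun ℓ hℓ h1 h2 => ?_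
    have hd : ℓ ∣ 2 * 3 ^ (m + 1) := by
      have := Nat.dvd_sub h2 h1
      rwa [show 3 ^ (2 * m + 1) + 3 ^ (m + 1) + 1 - (3 ^ (2 * m + 1) - 3 ^ (m + 1) + 1) =
        2 * 3 ^ (m + 1) by omega] at this
    rcases hℓ.dvd_mul.1 hd with h | h
    · obtain rfl := (Nat.prime_dvd_prime_iff_eq hℓ Nat.prime_two).1 h
      omega
    · obtain rfl := (Nat.prime_dvd_prime_iff_eq hℓ Nat.prime_three).1 (hℓ.dvd_of_dvd_pow h)
      omega

variable {K : Type*} [Field K] [Fintype K] {m : ℕ} (hK : Fintype.card K = 3 ^ (2 * m + 1))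
include hK

/-- `q - r + 1` or `q + r + 1`. -/
theorem exists_coxeter_conj (hm : 1 ≤ m) {a : ℕ}
    (ha : a = 3 ^ (2 * m + 1) - 3 ^ (m + 1) + 1 ∨ a = 3 ^ (2 * m + 1) + 3 ^ (m + 1) + 1) :
    ∃ B : Subgroup ↥(twistedG2 K (3 ^ m)), IsCyclic B ∧ Nat.card B = a ∧
      Nat.card (Subgroup.normalizer (B : Set ↥(twistedG2 K (3 ^ m)))) = 6 * a ∧
      (∀ z ∈ B, z ≠ 1 → Subgroup.centralizer {z} = B) ∧
      ∀ x : ↥(twistedG2 K (3 ^ m)), x ≠ 1 → orderOf x ∣ a → ∃ c, c * x * c⁻¹ ∈ B := by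
  obtain ⟨B, hcyc, hcard, hnorm, hC⟩ := (exists_coxeter_tori hK hm).1 a ha
  refine ⟨B, hcyc, hcard, hnorm, hC, fun x hx hxa => ?_⟩
  obtain ⟨hprod, hcop⟩ := tori_arith hm
  obtain ⟨a', ha', hcop'⟩ : ∃ a', a * a' = (3 ^ (2 * m + 1)) ^ 2 - 3 ^ (2 * m + 1) + 1 ∧
      Nat.Coprime a a' := by
    rcases ha with rfl | rfl
    · exact ⟨_, hprod, hcop⟩
    · exact ⟨_, (mul_comm _ _).trans hprod, hcop.symm⟩
  obtain ⟨ℓ, hℓ, hd⟩ := Nat.exists_prime_and_dvd (fun h => hx (orderOf_eq_one_iff.1 h))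
  have : Fact ℓ.Prime := ⟨hℓ⟩
  have hℓa : ℓ ∣ a := hd.trans hxa
  obtain ⟨h5, hpq, hpm, hpp⟩ := ree_coprime_facts hm hℓ (ha' ▸ dvd_mul_of_dvd_left hℓa a')
  have hidx : ¬ ℓ ∣ B.index := by
    rw [index_of_card hK B (r := (3 ^ (2 * m + 1)) ^ 3 * ((3 ^ (2 * m + 1) - 1) *
      ((3 ^ (2 * m + 1) + 1) * a'))) (by rw [hcard, card_ree' hK, ← ha']; ring)]
    intro h
    rcases hℓ.dvd_mul.1 h with h | h
    · exact hpq (hℓ.dvd_of_dvd_pow h)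
    rcases hℓ.dvd_mul.1 h with h | h
    · exact hpm h
    rcases hℓ.dvd_mul.1 h with h | h
    · exact hpp h
    · exact hℓ.not_dvd_one (hcop' ▸ Nat.dvd_gcd hℓa h)
  set y := x ^ (orderOf x / ℓ)
  have hy : orderOf y = ℓ := orderOf_pow_orderOf_div (orderOf_pos x).ne' hd
  obtain ⟨c, hc⟩ := exists_conj_mem_of_index B hidx (k := 1) (y := y) (by rw [pow_one, hy])
  have hne : c * y * c⁻¹ ≠ 1 := fun e => by
    rw [conj_eq_one_iff.1 e, orderOf_one] at hy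
    exact hℓ.one_lt.ne hy
  exact ⟨c, (hC _ hc hne).le (Subgroup.mem_centralizer_singleton_iff.2
    (((Commute.refl x).pow_right _).map (MulAut.conj c).toMonoidHom).eq)⟩

/-- Cyclic subgroups of the same toral order are conjugate. -/
theorem cyclic_conjugate (hm : 1 ≤ m) {d : ℕ}
    (hd : d ∣ (3 ^ (2 * m + 1) - 1) / 2 ∨ d ∣ (3 ^ (2 * m + 1) + 1) / 4 ∨
      d ∣ 3 ^ (2 * m + 1) - 3 ^ (m + 1) + 1 ∨ d ∣ 3 ^ (2 * m + 1) + 3 ^ (m + 1) + 1)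
    (A B : Subgroup ↥(twistedG2 K (3 ^ m))) (hA : IsCyclic A) (hB : IsCyclic B)
    (hAd : Nat.card A = d) (hBd : Nat.card B = d) :
    ∃ g : ↥(twistedG2 K (3 ^ m)), B = A.map (MulAut.conj g).toMonoidHom := by
  by_cases hd1 : d = 1
  · refine ⟨1, ?_⟩
    rw [Subgroup.card_eq_one.1 (hAd.trans hd1), Subgroup.card_eq_one.1 (hBd.trans hd1),
      Subgroup.map_bot]
  have hcox : ∀ a, (a = 3 ^ (2 * m + 1) - 3 ^ (m + 1) + 1 ∨ a = 3 ^ (2 * m + 1) + 3 ^ (m + 1) + 1) →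
      d ∣ a → ∃ g : ↥(twistedG2 K (3 ^ m)), B = A.map (MulAut.conj g).toMonoidHom := by
    intro a ha hda
    obtain ⟨T, hTc, -, -, hC, hconj⟩ := exists_coxeter_conj hK hm ha
    have key : ∀ H : Subgroup ↥(twistedG2 K (3 ^ m)), IsCyclic H → Nat.card H = d →
        ∃ c, ∀ x ∈ H, c * x * c⁻¹ ∈ T := by
      intro H hH hHd
      obtain ⟨⟨g, hg⟩, hgen⟩ := IsCyclic.exists_ofOrder_eq_natCard (α := H)
      rw [← Subgroup.orderOf_coe] at hgen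
      change orderOf g = _ at hgen
      have hg1 : g ≠ 1 := fun e => hd1 (by rw [← hHd, ← hgen, e, orderOf_one])
      obtain ⟨c, hc⟩ := hconj g hg1 (hgen.trans hHd ▸ hda)
      exact ⟨c, exists_conj_le hg (hC _ hc (fun e => hg1 (conj_eq_one_iff.1 e))).le⟩
    obtain ⟨a', ha'⟩ := key A hA hAd
    obtain ⟨b', hb'⟩ := key B hB hBd
    exact exists_map_eq ha' hb' (hAd.trans hBd.symm)
  rcases hd with hd | hd | hd | hd
  · obtain ⟨a, ha⟩ := split_conj_le hK hm A (hAd ▸ hd) (by omega)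
    obtain ⟨b, hb⟩ := split_conj_le hK hm B (hBd ▸ hd) (by omega)
    have := isCyclic_reeH hK (m := m)
    exact exists_map_eq (fun x hx => (ha x hx).1) (fun x hx => (hb x hx).1) (hAd.trans hBd.symm)
  · obtain ⟨M, A₀, e, o, hN⟩ := exists_nonsplit hK hm
    obtain ⟨a, ha⟩ := quarter_conj_le hK hm hN A (hAd ▸ hd) (by omega)
    obtain ⟨b, hb⟩ := quarter_conj_le hK hm hN B (hBd ▸ hd) (by omega)
    exact exists_map_eq (fun x hx => (ha x hx).1) (fun x hx => (hb x hx).1) (hAd.trans hBd.symm)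
  · exact hcox _ (Or.inl rfl) hd
  · exact hcox _ (Or.inr rfl) hd

end CfsgLib.ReeTori
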