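import Cfsg.Agent.Lib.ReeTori.Conjugacy
import Cfsg.Agent.Lib.Twisted.ReeUnipotentLaw

/-! The numbers of elements of each order in ²G₂(q). -/

set_option autoImplicit false
set_option linter.unusedSectionVars false

namespace CfsgLib.ReeTori

open Cfsg.Lie CfsgLib.Twisted
open IsRankOne (borelIn)

variable {K : Type*} [Field K] [Fintype K] {m : ℕ} (hK : Fintype.card K = 3 ^ (2 * m + 1))
include hK

theorem card_order_two (hm : 1 ≤ m) :
    Nat.card {g : ↥(twistedG2 K (3 ^ m)) // orderOf g = 2} =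
      (3 ^ (2 * m + 1)) ^ 2 * ((3 ^ (2 * m + 1)) ^ 2 - 3 ^ (2 * m + 1) + 1) := by
  have h := card_involutions hK hm
  rw [card_ree' hK] at h
  obtain ⟨h27, -, -⟩ := ree_q_data (m := m) hm
  generalize 3 ^ (2 * m + 1) = q at *
  rw [show q ^ 2 - 1 = (q + 1) * (q - 1) by rw [← Nat.sq_sub_sq, one_pow]] at h
  refine Nat.eq_of_mul_eq_mul_right (Nat.mul_pos (by omega : 0 < q) (Nat.mul_pos (by omega : 0 < q + 1) (by omega : 0 < q - 1))) ?_
  rw [h]
  ring

theorem card_order_three_ree (hm : 1 ≤ m) :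
    Nat.card {g : ↥(twistedG2 K (3 ^ m)) // orderOf g = 3} =
      ((3 ^ (2 * m + 1)) ^ 2 - 1) * ((3 ^ (2 * m + 1)) ^ 3 + 1) := by
  classical
  have h := card_conj_into (borelIn chevG2 (twistedG2 K (3 ^ m)))
    (fun s => s ∈ reeU K m ∧ orderOf s = 3)
    (fun n hn s hs => ⟨reeBorel_conj_mem hK hn hs.1, (orderOf_conj' n s).trans hs.2⟩)
    (fun c s hs hc => mem_reeBorel_of_conj hK hs.1
      (fun e => by have := hs.2; rw [e, orderOf_one] at this; omega) hc.1)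
  rw [Nat.card_congr (Equiv.subtypeEquivRight
    (q := fun g => ∃ c, c * g * c⁻¹ ∈ reeU K m ∧ orderOf (c * g * c⁻¹) = 3) fun g =>
      ⟨fun hg => (exists_conj_reeU hK hm (k := 1) (by rw [pow_one]; exact hg)).imp fun c hc => ⟨hc, (orderOf_conj' c g).trans hg⟩,
        fun ⟨c, _, hc⟩ => (orderOf_conj' c g).symm.trans hc⟩), h, index_reeBorel hK hm, mul_comm]
  congr 1
  rw [← CfsgLib.Twisted.card_order_three hK]
  refine Nat.card_congr ⟨fun x => ⟨⟨x.1, mem_reeU.1 x.2.1, (x.1).2⟩, ?_⟩,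
    fun x => ⟨⟨x.1.1, x.1.2.2⟩, mem_reeU.2 x.1.2.1, ?_⟩, fun x => rfl, fun x => rfl⟩
  · have := x.2.2
    rwa [← Subgroup.orderOf_coe] at this ⊢
  · have := x.2
    rwa [← Subgroup.orderOf_coe] at this ⊢

theorem card_order_nine (hm : 1 ≤ m) :
    Nat.card {g : ↥(twistedG2 K (3 ^ m)) // orderOf g = 9} =
      (3 ^ (2 * m + 1)) ^ 2 * (3 ^ (2 * m + 1) - 1) * ((3 ^ (2 * m + 1)) ^ 3 + 1) := by
  have h := card_three_elements hK hm
  have h3 := card_order_three_ree hK hm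
  rw [nat_card_split _ (fun g : ↥(twistedG2 K (3 ^ m)) => orderOf g = 3),
    Nat.card_congr (Equiv.subtypeEquivRight
      (p := fun g : ↥(twistedG2 K (3 ^ m)) => (∃ k, orderOf g = 3 ^ (k + 1)) ∧ orderOf g = 3)
      (q := fun g => orderOf g = 3) fun g => ⟨fun h => h.2, fun h => ⟨⟨0, h⟩, h⟩⟩),
    Nat.card_congr (Equiv.subtypeEquivRight
      (p := fun g : ↥(twistedG2 K (3 ^ m)) => (∃ k, orderOf g = 3 ^ (k + 1)) ∧ ¬ orderOf g = 3)
      (q := fun g => orderOf g = 9) fun g => ?_), h3] at h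
  · obtain ⟨h27, -, -⟩ := ree_q_data (m := m) hm
    generalize 3 ^ (2 * m + 1) = q at *
    generalize Nat.card {g : ↥(twistedG2 K (3 ^ m)) // orderOf g = 9} = a at h ⊢
    obtain ⟨w, rfl⟩ : ∃ w, q = w + 1 := ⟨q - 1, by omega⟩
    rw [show (w + 1) ^ 2 - 1 = w * (w + 2) by
      rw [show (w + 1) ^ 2 = w * (w + 2) + 1 by ring, Nat.add_sub_cancel]] at h
    rw [Nat.add_sub_cancel]
    zify at h ⊢
    linear_combination h
  · constructor
    · rintro ⟨⟨k, hk⟩, hne⟩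
      have hd : orderOf g ∣ 3 ^ 2 := orderOf_dvd_of_pow_eq_one (pow_nine_eq_one hK hm hk)
      rw [hk, Nat.pow_dvd_pow_iff_le_right (by norm_num : 1 < 3)] at hd
      rcases (show k = 0 ∨ k = 1 by omega) with rfl | rfl
      · exact absurd hk hne
      · exact hk
    · intro hg
      exact ⟨⟨1, hg⟩, by omega⟩

theorem card_order_six_ree (hm : 1 ≤ m) :
    Nat.card {g : ↥(twistedG2 K (3 ^ m)) // orderOf g = 6} =
      (3 ^ (2 * m + 1)) ^ 2 * (3 ^ (2 * m + 1) - 1) * ((3 ^ (2 * m + 1)) ^ 3 + 1) := by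
  have h := card_order_six hK hm
  rw [card_ree hK] at h
  obtain ⟨h27, -, -⟩ := ree_q_data (m := m) hm
  generalize 3 ^ (2 * m + 1) = q at *
  refine Nat.eq_of_mul_eq_mul_right (Nat.mul_pos (by omega : 0 < q) (by omega : 0 < q - 1)) ?_
  rw [h]
  ring

theorem card_order_split (hm : 1 ≤ m) {i : ℕ} (hi : 2 < i) (hd : i ∣ 3 ^ (2 * m + 1) - 1) :
    2 * Nat.card {g : ↥(twistedG2 K (3 ^ m)) // orderOf g = i} =
      Nat.totient i * (3 ^ (2 * m + 1)) ^ 3 * ((3 ^ (2 * m + 1)) ^ 3 + 1) := by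
  obtain ⟨h27, hq8, -⟩ := ree_q_data (m := m) hm
  obtain ⟨ℓ, hℓ, hℓ2, hℓi⟩ := exists_odd_prime_dvd hi fun h4 => by
    have := h4.trans hd; omega
  have h := card_order_mul_normalizer (reeH K m) i
    (fun z hz hzo => centralizer_eq_reeH hK hm hz (sq_ne_one_of_two_lt (hzo.symm ▸ hi)))
    (fun g hg => exists_conj_split hK hm hℓ hℓ2 (hg.symm ▸ hℓi) (hℓi.trans hd))
  have := isCyclic_reeH hK (m := m)
  rw [card_normalizer_reeH hK hm, card_orderOf_mem (reeH K m) ((card_reeH hK).symm ▸ hd),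
    card_ree hK] at h
  generalize 3 ^ (2 * m + 1) = q at *
  refine Nat.eq_of_mul_eq_mul_right (by omega : 0 < q - 1) ?_
  calc _ = Nat.card {g : ↥(twistedG2 K (3 ^ m)) // orderOf g = i} * (2 * (q - 1)) := by ring
    _ = _ := by rw [h]; ring

theorem exists_prime_facts_quarter (hm : 1 ≤ m) {i : ℕ} (hi : 1 < i)
    (hd : i ∣ (3 ^ (2 * m + 1) + 1) / 4) :
    Odd i ∧ ∃ ℓ, ℓ.Prime ∧ ℓ ≠ 2 ∧ ℓ ∣ i ∧ ℓ ∣ 3 ^ (2 * m + 1) + 1 := by
  obtain ⟨h27, hq8, -⟩ := ree_q_data (m := m) hm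
  have hodd : Odd i := (Nat.odd_iff.2 (by omega) : Odd ((3 ^ (2 * m + 1) + 1) / 4)).of_dvd_nat hd
  obtain ⟨ℓ, hℓ, hℓi⟩ := Nat.exists_prime_and_dvd (show i ≠ 1 by omega)
  refine ⟨hodd, ℓ, hℓ, fun e => ?_, hℓi,
    (hℓi.trans hd).trans (Nat.div_dvd_of_dvd (by omega))⟩
  subst e
  exact Nat.not_even_iff_odd.2 hodd (even_iff_two_dvd.2 hℓi)

theorem card_order_quarter (hm : 1 ≤ m) {i : ℕ} (hi : 1 < i) (hd : i ∣ (3 ^ (2 * m + 1) + 1) / 4) :
    6 * Nat.card {g : ↥(twistedG2 K (3 ^ m)) // orderOf g = i} =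
        Nat.totient i * (3 ^ (2 * m + 1)) ^ 3 * (3 ^ (2 * m + 1) - 1) *
          ((3 ^ (2 * m + 1)) ^ 2 - 3 ^ (2 * m + 1) + 1) ∧
      2 * Nat.card {g : ↥(twistedG2 K (3 ^ m)) // orderOf g = 2 * i} =
        Nat.totient i * (3 ^ (2 * m + 1)) ^ 3 * (3 ^ (2 * m + 1) - 1) *
          ((3 ^ (2 * m + 1)) ^ 2 - 3 ^ (2 * m + 1) + 1) := by
  classical
  obtain ⟨hodd, ℓ, hℓ, hℓ2, hℓi, hℓq⟩ := exists_prime_facts_quarter hK hm hi hd
  obtain ⟨M, A, e, o, hN⟩ := exists_nonsplit hK hm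
  obtain ⟨ho, -, -, -⟩ := nonsplit_orderOf_o hK hN hm
  set Z := Subgroup.zpowers o
  have hZM : Z ≤ M := Subgroup.zpowers_le.2 hN.memo
  have hZi : Nat.card {s : ↥(twistedG2 K (3 ^ m)) // s ∈ Z ∧ orderOf s = i} = Nat.totient i :=
    card_orderOf_mem Z (by rw [Nat.card_zpowers, ho]; exact hd)
  have h1 : Nat.card {s : ↥(twistedG2 K (3 ^ m)) // s ∈ M ∧ orderOf s = i} = Nat.totient i := by
    rw [← hZi]
    exact Nat.card_congr (Equiv.subtypeEquivRight fun s =>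
      ⟨fun h => ⟨hN.odd_mem s h.1 (h.2.symm ▸ hodd), h.2⟩, fun h => ⟨hZM h.1, h.2⟩⟩)
  have h2 : Nat.card {s : ↥(twistedG2 K (3 ^ m)) // s ∈ M ∧ orderOf s = 2 * i} = 3 * Nat.totient i := by
    set E := invSubgroup M hN.comm
    have hE : Nat.card {f : E // f ≠ 1} = 3 := by
      have := Fintype.ofFinite E
      rw [Nat.card_eq_fintype_card, Fintype.card_subtype_compl, Fintype.card_subtype_eq,
        ← Nat.card_eq_fintype_card, card_invSubgroup hK hN hm]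
    rw [show 3 * Nat.totient i = Nat.card {f : E // f ≠ 1} *
      Nat.card {s : ↥(twistedG2 K (3 ^ m)) // s ∈ Z ∧ orderOf s = i} by rw [hE, hZi], ← Nat.card_prod]
    have hcomm : ∀ {a b}, a ∈ M → b ∈ M → Commute a b := fun ha hb => nonsplit_commute hK hN hm ha hb
    have hord : ∀ f : {f : E // f ≠ 1}, orderOf ((f.1 : ↥(twistedG2 K (3 ^ m)))) = 2 := fun f =>
      orderOf_eq_prime (by rw [pow_two]; exact f.1.2.2) fun h => f.2 (Subtype.ext h)
    let F : {f : E // f ≠ 1} × {s : ↥(twistedG2 K (3 ^ m)) // s ∈ Z ∧ orderOf s = i} →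
        {s : ↥(twistedG2 K (3 ^ m)) // s ∈ M ∧ orderOf s = 2 * i} := fun p =>
      ⟨p.1.1 * p.2.1, mul_mem p.1.1.2.1 (hZM p.2.2.1), by
        rw [(hcomm p.1.1.2.1 (hZM p.2.2.1)).orderOf_mul_eq_mul_orderOf_of_coprime (by
          rw [hord, p.2.2.2]; exact Nat.coprime_two_left.2 hodd), hord, p.2.2.2]⟩
    have hoddpow : ∀ {f : ↥(twistedG2 K (3 ^ m))}, f * f = 1 → f ^ i = f := by
      intro f hf
      obtain ⟨k, hk⟩ := hodd
      rw [hk, pow_succ, pow_mul, pow_two, hf, one_pow, one_mul]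
    have hpow : ∀ (p : {f : E // f ≠ 1} × {s : ↥(twistedG2 K (3 ^ m)) // s ∈ Z ∧ orderOf s = i}),
        ((p.1.1 : ↥(twistedG2 K (3 ^ m))) * p.2.1) ^ i = p.1.1 := by
      intro p
      rw [(hcomm p.1.1.2.1 (hZM p.2.2.1)).mul_pow, orderOf_dvd_iff_pow_eq_one.1 p.2.2.2.dvd, mul_one]
      exact hoddpow p.1.1.2.2
    refine (Nat.card_eq_of_bijective F ⟨fun p p' h => ?_, fun x => ?_⟩).symm
    · have h' : (p.1.1 : ↥(twistedG2 K (3 ^ m))) * p.2.1 = p'.1.1 * p'.2.1 := congrArg Subtype.val h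
      have e1 : (p.1.1 : ↥(twistedG2 K (3 ^ m))) = p'.1.1 := by rw [← hpow p, h', hpow p']
      rw [e1] at h'
      exact Prod.ext (Subtype.ext (Subtype.ext e1)) (Subtype.ext (mul_left_cancel h'))
    · obtain ⟨x, hxM, hxo⟩ := x
      set f := x ^ i
      have hf : orderOf f = 2 := by
        rw [orderOf_pow' x (by omega), hxo, Nat.gcd_eq_right (dvd_mul_left i 2),
          Nat.mul_div_cancel 2 (by omega)]
      have hfM : f ∈ M := pow_mem hxM i
      have hff : f * f = 1 := by rw [← pow_two, ← hf, pow_orderOf_eq_one]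
      have hcfx : Commute f (f * x) := hcomm hfM (mul_mem hfM hxM)
      have hs : orderOf (f * x) = i := by
        have hi' : (f * x) ^ i = 1 := by
          rw [(hcomm hfM hxM).mul_pow]
          show f ^ i * f = 1
          rw [hoddpow hff, hff]
        have hmul := hcfx.orderOf_mul_eq_mul_orderOf_of_coprime (by
          rw [hf]; exact Nat.coprime_two_left.2 (hodd.of_dvd_nat (orderOf_dvd_of_pow_eq_one hi')))
        rw [← mul_assoc, hff, one_mul, hxo, hf] at hmul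
        omega
      refine ⟨(⟨⟨f, hfM, hff⟩, fun h => ?_⟩,
        ⟨f * x, hN.odd_mem _ (mul_mem hfM hxM) (hs.symm ▸ hodd), hs⟩), Subtype.ext ?_⟩
      · rw [show f = 1 from congrArg Subtype.val h, orderOf_one] at hf
        omega
      · show f * (f * x) = x
        rw [← mul_assoc, hff, one_mul]
  have key : ∀ j, ℓ ∣ j → 2 < j → Nat.card {g : ↥(twistedG2 K (3 ^ m)) // orderOf g = j} *
      (6 * (3 ^ (2 * m + 1) + 1)) = Nat.card ↥(twistedG2 K (3 ^ m)) *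
        Nat.card {s : ↥(twistedG2 K (3 ^ m)) // s ∈ M ∧ orderOf s = j} := fun j hj hj2 => by
    rw [← card_normalizer_nonsplit hK hN hm]
    exact card_order_mul_normalizer M j
      (fun z hz hzo => centralizer_eq_nonsplit_of_sq_ne hK hN hm hz (sq_ne_one_of_two_lt (hzo.symm ▸ hj2)))
      (fun g hg => exists_conj_quarter hK hm hN hℓ hℓ2 (hg.symm ▸ hj) hℓq)
  have hi3 : 2 < i := by
    have := hℓ.two_le
    have := Nat.le_of_dvd (by omega) hℓi
    omega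
  have k1 := key i hℓi hi3
  have k2 := key (2 * i) (dvd_mul_of_dvd_right hℓi 2) (by omega)
  rw [h1, card_ree' hK] at k1
  rw [h2, card_ree' hK] at k2
  generalize 3 ^ (2 * m + 1) = q at *
  constructor
  · refine Nat.eq_of_mul_eq_mul_right (by omega : 0 < q + 1) ?_
    calc _ = Nat.card {g : ↥(twistedG2 K (3 ^ m)) // orderOf g = i} * (6 * (q + 1)) := by ring
      _ = _ := by rw [k1]; ring
  · refine Nat.eq_of_mul_eq_mul_right (Nat.mul_pos (by norm_num : 0 < 3) (by omega : 0 < q + 1)) ?_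
    calc _ = Nat.card {g : ↥(twistedG2 K (3 ^ m)) // orderOf g = 2 * i} * (6 * (q + 1)) := by ring
      _ = _ := by rw [k2]; ring

theorem card_order_coxeter (hm : 1 ≤ m) {a a' i : ℕ}
    (ha : a = 3 ^ (2 * m + 1) - 3 ^ (m + 1) + 1 ∨ a = 3 ^ (2 * m + 1) + 3 ^ (m + 1) + 1)
    (hprod : a * a' = (3 ^ (2 * m + 1)) ^ 2 - 3 ^ (2 * m + 1) + 1)
    (hi : 1 < i) (hd : i ∣ a) :
    6 * Nat.card {g : ↥(twistedG2 K (3 ^ m)) // orderOf g = i} =
      Nat.totient i * (3 ^ (2 * m + 1)) ^ 3 * ((3 ^ (2 * m + 1)) ^ 2 - 1) * a' := by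
  obtain ⟨B, hcyc, hcard, hnorm, hC, hconj⟩ := exists_coxeter_conj hK hm ha
  have h := card_order_mul_normalizer B i
    (fun z hz hzo => hC z hz fun e => by rw [e, orderOf_one] at hzo; omega)
    (fun g hg => hconj g (fun e => by rw [e, orderOf_one] at hg; omega) (hg.symm ▸ hd))
  rw [hnorm, card_orderOf_mem B (hcard.symm ▸ hd), card_ree' hK, ← hprod] at h
  have ha0 : 0 < a := by rcases ha with rfl | rfl <;> omega
  generalize 3 ^ (2 * m + 1) = q at *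
  rw [show q ^ 2 - 1 = (q + 1) * (q - 1) by rw [← Nat.sq_sub_sq, one_pow]]
  refine Nat.eq_of_mul_eq_mul_right ha0 ?_
  calc _ = Nat.card {g : ↥(twistedG2 K (3 ^ m)) // orderOf g = i} * (6 * a) := by ring
    _ = _ := by rw [h]; ring

end CfsgLib.ReeTori
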